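import Mathlib
import Cfsg.Prelude.Def_CaseTheorems
import Cfsg.Agent.TwoFusion.SectionalRank
set_option linter.all false

/-!
# Elementary abelian sections of 2-groups

* `elemSection_closure`: if `N` is normalized by every element of `T`, and `N` contains the commutators and squares
  of the elements of `T`, then `closure (T ∪ N) / N` is elementary abelian.
* `two_mul_card_le`: `2 * |H| ≤ |K|` for `H < K`.
* `exists_sq_mem`: in a 2-group, every element outside `K` has a power outside `K` whose square is in `K`.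
-/

set_option autoImplicit false

namespace Cfsg.Agent.H584.Sect

open Subgroup Cfsg Cfsg.Agent.TwoFusion.SectionalRank

variable {G : Type*} [Group G]

theorem two_mul_card_le [Finite G] {H K : Subgroup G} (h : H < K) : 2 * Nat.card H ≤ Nat.card K := by
  have h1 : Nat.card H ∣ Nat.card K := Subgroup.card_dvd_of_le h.le
  obtain ⟨c, hc⟩ := h1
  have h2 : Nat.card H < Nat.card K := by
    by_contra hcon
    exact h.ne (Subgroup.eq_of_le_of_card_ge h.le (not_lt.1 hcon))
  have h3 : 2 ≤ c := by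
    by_contra hcon
    have h4 : c = 0 ∨ c = 1 := by omega
    rcases h4 with rfl | rfl
    · have : 0 < Nat.card K := Nat.card_pos
      omega
    · omega
  rw [hc, mul_comm]
  exact Nat.mul_le_mul_left _ h3

theorem exists_sq_mem (hG : IsPGroup 2 G) (K : Subgroup G) (x : G) (hx : x ∉ K) :
    ∃ j : ℕ, x ^ (2 ^ j) ∉ K ∧ (x ^ (2 ^ j)) ^ 2 ∈ K := by
  classical
  obtain ⟨m, hm⟩ := hG x
  have hex : ∃ j : ℕ, x ^ (2 ^ j) ∈ K := ⟨m, by rw [hm]; exact one_mem K⟩
  have h0 : Nat.find hex ≠ 0 := by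
    intro h
    have := Nat.find_spec hex
    rw [h, pow_zero, pow_one] at this
    exact hx this
  obtain ⟨j, hj⟩ := Nat.exists_eq_succ_of_ne_zero h0
  refine ⟨j, Nat.find_min hex (by omega), ?_⟩
  have := Nat.find_spec hex
  rw [hj, Nat.succ_eq_add_one, pow_succ, pow_mul] at this
  exact this

theorem elemSection_closure (N : Subgroup G) (T : Set G)
    (hn : ∀ a ∈ T, a ∈ normalizer (N : Set G)) (hc : ∀ a ∈ T, ∀ b ∈ T, a * b * a⁻¹ * b⁻¹ ∈ N)
    (hs : ∀ a ∈ T, a * a ∈ N) : ElemSection 2 (closure (T ∪ (N : Set G))) N := by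
  set X := closure (T ∪ (N : Set G)) with hX
  have hgen : ∀ a ∈ T ∪ (N : Set G), a ∈ normalizer (N : Set G) := by
    rintro a (ha | ha)
    · exact hn a ha
    · exact le_normalizer ha
  have hXn : X ≤ normalizer (N : Set G) := (closure_le _).2 hgen
  have hconj : ∀ a ∈ X, ∀ n ∈ N, a * n * a⁻¹ ∈ N := fun a ha n hn' =>
    (mem_normalizer_iff.1 (hXn ha) n).1 hn'
  have hconj' : ∀ a ∈ X, ∀ n ∈ N, a⁻¹ * n * a ∈ N := by
    intro a ha n hn'
    have := hconj a⁻¹ (X.inv_mem ha) n hn'
    rwa [inv_inv] at this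
  have hcomm0 : ∀ a ∈ T ∪ (N : Set G), ∀ b ∈ T ∪ (N : Set G), a * b * a⁻¹ * b⁻¹ ∈ N := by
    rintro a ha b (hb | hb)
    · rcases ha with ha | ha
      · exact hc a ha b hb
      · have : b * a⁻¹ * b⁻¹ ∈ N := hconj b (subset_closure (Or.inl hb)) _ (inv_mem ha)
        have := mul_mem (show a ∈ N from ha) this
        simpa [mul_assoc] using this
    · have : a * b * a⁻¹ ∈ N := hconj a (subset_closure ha) _ hb
      exact mul_mem this (inv_mem hb)
  -- commutators of a generator and an element of `X`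
  have hcomm1 : ∀ a ∈ T ∪ (N : Set G), ∀ b ∈ X, a * b * a⁻¹ * b⁻¹ ∈ N := by
    intro a ha b hb
    induction hb using closure_induction with
    | mem x hx => exact hcomm0 a ha x hx
    | one => simp
    | mul x y hx hy ihx ihy =>
      have h1 := mul_mem ihx (hconj x hx _ ihy)
      have : a * x * a⁻¹ * x⁻¹ * (x * (a * y * a⁻¹ * y⁻¹) * x⁻¹) = a * (x * y) * a⁻¹ * (x * y)⁻¹ := by
        group
      rwa [this] at h1
    | inv x hx ihx =>
      have h1 := hconj' x hx _ (inv_mem ihx)
      have : x⁻¹ * (a * x * a⁻¹ * x⁻¹)⁻¹ * x = a * x⁻¹ * a⁻¹ * x⁻¹⁻¹ := by group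
      rwa [this] at h1
  have hcomm : ∀ a ∈ X, ∀ b ∈ X, a * b * a⁻¹ * b⁻¹ ∈ N := by
    intro a ha b hb
    induction ha using closure_induction with
    | mem x hx => exact hcomm1 x hx b hb
    | one => simp
    | mul x y hx hy ihx ihy =>
      have h1 := mul_mem (hconj x hx _ ihy) ihx
      have : x * (y * b * y⁻¹ * b⁻¹) * x⁻¹ * (x * b * x⁻¹ * b⁻¹) = x * y * b * (x * y)⁻¹ * b⁻¹ := by
        group
      rwa [this] at h1
    | inv x hx ihx =>
      have h1 := hconj' x hx _ (inv_mem ihx)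
      have : x⁻¹ * (x * b * x⁻¹ * b⁻¹)⁻¹ * x = x⁻¹ * b * x⁻¹⁻¹ * b⁻¹ := by group
      rwa [this] at h1
  refine ⟨fun n hn' => subset_closure (Or.inr hn'), hcomm, ?_⟩
  intro a ha
  rw [pow_two]
  induction ha using closure_induction with
  | mem x hx =>
    rcases hx with hx | hx
    · exact hs x hx
    · exact mul_mem hx hx
  | one => simp
  | mul x y hx hy ihx ihy =>
    have h1 := hconj x hx _ (hcomm y hy x hx)
    have h2 := mul_mem (mul_mem h1 ihx) ihy
    have : x * (y * x * y⁻¹ * x⁻¹) * x⁻¹ * (x * x) * (y * y) = x * y * (x * y) := by group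
    rwa [this] at h2
  | inv x hx ihx =>
    have : x⁻¹ * x⁻¹ = (x * x)⁻¹ := by group
    rw [this]
    exact inv_mem ihx

/-- A section generated by a section `M / N` and one more element `y`. -/
theorem elemSection_sup {M N : Subgroup G} (h : ElemSection 2 M N) (y : G)
    (hc : ∀ m ∈ M, y * m * y⁻¹ * m⁻¹ ∈ N) (hs : y * y ∈ N) :
    ElemSection 2 (M ⊔ zpowers y) N := by
  have hMn : ∀ m ∈ M, m ∈ normalizer (N : Set G) := by
    intro m hm
    have hnorm : ∀ m ∈ M, ∀ n ∈ N, m * n * m⁻¹ ∈ N := fun m hm n hn => h.conj_mem hm hn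
    rw [mem_normalizer_iff]
    intro n
    refine ⟨fun hn => hnorm m hm n hn, fun hn => ?_⟩
    have := hnorm m⁻¹ (inv_mem hm) _ hn
    simpa [mul_assoc] using this
  have hyc : ∀ n ∈ N, y * n * y⁻¹ ∈ N := by
    intro n hn
    have := mul_mem (hc n (h.le hn)) hn
    simpa using this
  have hyn : y ∈ normalizer (N : Set G) := by
    rw [mem_normalizer_iff]
    intro n
    refine ⟨fun hn => hyc n hn, fun hn => ?_⟩
    have h1 := hyc _ hn
    have h2 : (y * y)⁻¹ * (y * (y * n * y⁻¹) * y⁻¹) * (y * y) = n := by group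
    rw [← h2]
    exact mul_mem (mul_mem (inv_mem hs) h1) hs
  have h1 := elemSection_closure N ((M : Set G) ∪ {y}) ?_ ?_ ?_
  · have h2 : closure ((M : Set G) ∪ {y} ∪ (N : Set G)) = M ⊔ zpowers y := by
      rw [Subgroup.closure_union, Subgroup.closure_union, Subgroup.closure_eq, Subgroup.closure_eq, ← zpowers_eq_closure]
      exact sup_eq_left.2 (h.le.trans le_sup_left)
    rwa [h2] at h1
  · rintro a (ha | ha)
    · exact hMn a ha
    · rw [Set.mem_singleton_iff] at ha
      rw [ha]; exact hyn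
  · rintro a (ha | ha) b (hb | hb)
    · exact h.comm a ha b hb
    · rw [Set.mem_singleton_iff] at hb
      subst hb
      have h3 := inv_mem (hc a ha)
      have h4 : (b * a * b⁻¹ * a⁻¹)⁻¹ = a * b * a⁻¹ * b⁻¹ := by group
      rwa [h4] at h3
    · rw [Set.mem_singleton_iff] at ha
      subst ha
      exact hc b hb
    · rw [Set.mem_singleton_iff] at ha hb
      subst ha
      subst hb
      simp
  · rintro a (ha | ha)
    · rw [← pow_two]; exact h.pow a ha
    · rw [Set.mem_singleton_iff] at ha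
      rw [ha]; exact hs

/-- The rank bound applied to a section `M / N` and one more element. -/
theorem card_le_of_section [Finite G] {k : ℕ} (hr : SectionalPRankLE 2 k G) {M N : Subgroup G}
    (h : ElemSection 2 M N) (y : G) (hc : ∀ m ∈ M, y * m * y⁻¹ * m⁻¹ ∈ N) (hs : y * y ∈ N) (hy : y ∉ M) :
    2 * Nat.card M ≤ 2 ^ k * Nat.card N := by
  have h1 := sectionalPRankLE_iff.1 hr _ _ (elemSection_sup h y hc hs)
  refine le_trans (two_mul_card_le (lt_of_le_of_ne le_sup_left ?_)) h1
  intro h2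
  apply hy
  rw [h2]
  exact (le_sup_right : zpowers y ≤ _) (mem_zpowers y)

end Cfsg.Agent.H584.Sect
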